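import Cfsg.Agent.H456.J7.Invol
import Cfsg.Agent.H250.J7.T7b

/-!
# S3068, T7d: the element `t`, from T7c (helper456)
-/

set_option autoImplicit false

namespace Cfsg.Agent.H456.J7

open Subgroup Cfsg Cfsg.Agent.H215.J7
open scoped commutatorElement

universe u

variable {G : Type u} [Group G] [Finite G] {p : ℕ} [Fact p.Prime]

/-- **T7d**, from T7c (`hc` is exactly the statement of `t7c_hh` for `G`) -/
theorem t7d_of_t7c (hp : 7 ≤ p)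
    (hc : ∀ (_ : centralizer (pCore p G : Set G) ≤ pCore p G) {D N A : Subgroup G} (_ : D.Normal)
      (_ : D ≤ pCore p G) (_ : pCore p G ⊓ centralizer (D : Set G) ≤ D) (_ : N.Normal) (_ : pCore p G ≤ N)
      (_ : ¬ p ∣ (pCore p G).relIndex N) (_ : IsPGroup p A)
      (_ : ∀ U V : Subgroup G, IsChiefFactor U V → U ≤ D → ∀ a ∈ A, iterCommutator U (zpowers a) 6 ≤ V),
      ⁅N, A⁆ ≤ pCore p G)
    (S : Sylow p G) {M : Subgroup G} (c : Cfg p (S : Subgroup G) M)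
    {R D A : Subgroup G} (h : RD p (pCore p G) R D) (hAS : A ≤ S) (hAc : Ab A)
    (hAm : ∀ B ≤ (S : Subgroup G), Ab B → Nat.card B ≤ Nat.card A) (hAQ : ¬ A ≤ pCore p G)
    (hquad : ∀ z ∈ ZZ (pCore p G), ∀ a ∈ A, ∀ b ∈ A, ⁅a, ⁅b, z⁆⁆ = 1)
    (hN : centralizer (VV p (pCore p G) : Set G) ⊔ (S : Subgroup G) ≠ ⊤)
    (hb : ∀ U V : Subgroup G, IsChiefFactor U V → U ≤ D → ∀ a ∈ A, iterCommutator U (zpowers a) 6 ≤ V) :
    ∃ t : G, t * t ∈ pCore p G ∧ (∀ a ∈ A, ⁅t, a⁆ ∈ pCore p G) ∧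
      ∀ v ∈ VV p (pCore p G), t * v = v * t → ∀ a ∈ A, a * v = v * a := by
  have hQn := Cfsg.Agent.Lib.Cores.pCore_normal p (G := G)
  refine Invol.t7d_of (by omega) S c h hAS hAc hAm hAQ hquad hN hb ?_ hc
  intro π h1 h2 A h3 h4 E h5 h6 h7 x y z h8 h9 h10 h11 h12
  exact Cfsg.Agent.H250.J7.t7b_lift π h1 h2 h3 h4 h5 h6 h7 h8 h9 h10 h11 h12

end Cfsg.Agent.H456.J7
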