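import Cfsg.Agent.H263.FF.OddOff
import Cfsg.Agent.TwoFusion.SLTwoFacts
import Mathlib.NumberTheory.SumTwoSquares

/-!
# S3068, T7a: central involutions for FF-modules (helper456)
-/

set_option autoImplicit false

namespace Cfsg.Agent.H456.J7.FF

open Subgroup Cfsg
open Cfsg.Agent.H263.FF.Basic Cfsg.Agent.H263.FF.OddOff
open scoped commutatorElement

open Matrix in
/-- `y² = -1` and `x y x⁻¹ = - y` in `SL₂(F)` -/
theorem exists_xy (F : Type*) [Field F] [Fintype F] : ∃ x y : SpecialLinearGroup (Fin 2) F,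
    y * y = -1 ∧ x * y * x⁻¹ = -1 * y := by
  obtain ⟨q, hq⟩ := CharP.exists F
  have : NeZero q := ⟨CharP.char_ne_zero_of_finite F q⟩
  obtain ⟨a, b, hab⟩ := CharP.sq_add_sq F q (-1)
  have hab' : (a : F) ^ 2 + (b : F) ^ 2 = -1 := by rw [hab]; simp
  have h1 : det (!![(a : F), b; b, -a]) = 1 := by rw [det_fin_two_of]; linear_combination -hab'
  have h2 : det (!![(0 : F), 1; -1, 0]) = 1 := by rw [det_fin_two_of]; ring
  obtain ⟨x, hx⟩ : ∃ x : SpecialLinearGroup (Fin 2) F, (x : Matrix (Fin 2) (Fin 2) F) = !![(a : F), b; b, -a] :=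
    ⟨⟨_, h1⟩, rfl⟩
  obtain ⟨y, hy⟩ : ∃ x : SpecialLinearGroup (Fin 2) F, (x : Matrix (Fin 2) (Fin 2) F) = !![(0 : F), 1; -1, 0] :=
    ⟨⟨_, h2⟩, rfl⟩
  refine ⟨x, y, ?_, ?_⟩
  · apply Matrix.SpecialLinearGroup.ext
    intro i j
    rw [Matrix.SpecialLinearGroup.coe_mul, hy, Matrix.SpecialLinearGroup.coe_neg, Matrix.SpecialLinearGroup.coe_one]
    fin_cases i <;> fin_cases j <;> simp
  · have h3 : x * y = -1 * y * x := by
      apply Matrix.SpecialLinearGroup.ext
      intro i j
      rw [Matrix.SpecialLinearGroup.coe_mul, Matrix.SpecialLinearGroup.coe_mul, Matrix.SpecialLinearGroup.coe_mul, hx, hy,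
        Matrix.SpecialLinearGroup.coe_neg, Matrix.SpecialLinearGroup.coe_one]
      fin_cases i <;> fin_cases j <;> simp
    rw [h3, mul_inv_cancel_right]

variable {X : Type*} [Group X] {V : Type*} [AddCommGroup V] [DistribMulAction X V]

/-- the elements of one factor -/
structure One (V : Type*) [AddCommGroup V] [DistribMulAction X V] (E : Subgroup X) (x y z : X) : Prop where
  hx : x ∈ E
  hy : y ∈ E
  hz : z ∈ E
  yy : y * y = z
  xy : x * y * x⁻¹ = z * y
  zc : ∀ e ∈ E, z * e = e * z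
  neg : ∀ e ∈ E, ∀ v : V, e • (z • v + v) = z • v + v

theorem exists_one {E : Subgroup X} (h : NatA V E) : ∃ x y z : X, One V E x y z := by
  obtain ⟨F, hF, hFt, φ, π, hs, hk, ha⟩ := h
  obtain ⟨x, y, h1, h2⟩ := exists_xy F
  refine ⟨φ.symm x, φ.symm y, φ.symm (-1), (φ.symm x).2, (φ.symm y).2, (φ.symm (-1)).2, ?_, ?_, ?_, ?_⟩
  · rw [← Subgroup.coe_mul, ← map_mul, h1]
  · rw [← Subgroup.coe_mul, ← map_mul, ← Subgroup.coe_inv, ← map_inv, ← Subgroup.coe_mul, ← map_mul, h2,
      map_mul, Subgroup.coe_mul]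
  · intro e he
    have h3 : φ.symm (-1) * ⟨e, he⟩ = ⟨e, he⟩ * φ.symm (-1) := by
      apply φ.injective
      rw [map_mul, map_mul, φ.apply_symm_apply]
      exact (neg_one_mul _).trans (mul_neg_one _).symm
    exact congrArg Subtype.val h3
  · intro e he v
    apply (hk _).1 ?_ e he
    rw [map_add, ha, φ.apply_symm_apply]
    show Matrix.mulVec (-1 : Matrix (Fin 2) (Fin 2) F) (π v) + π v = 0
    rw [Matrix.neg_mulVec, Matrix.one_mulVec, neg_add_cancel]

/-- the properties of `x`, `y`, `z` for the set `s` of factors -/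
structure Good {r : ℕ} (E : Fin r → Subgroup X) (V : Type*) [AddCommGroup V] [DistribMulAction X V]
    (s : Finset (Fin r)) (x y z : X) : Prop where
  hx : x ∈ ⨆ i, E i
  hy : y ∈ ⨆ i, E i
  hz : z ∈ ⨆ i, E i
  yy : y * y = z
  xy : x * y * x⁻¹ = z * y
  zc : ∀ i, ∀ e ∈ E i, z * e = e * z
  xc : ∀ i ∉ s, ∀ e ∈ E i, x * e = e * x
  yc : ∀ i ∉ s, ∀ e ∈ E i, y * e = e * y
  neg : ∀ i ∈ s, ∀ e ∈ E i, ∀ v : V, e • (z • v + v) = z • v + v
  out : ∀ i ∉ s, ∀ e ∈ E i, ∀ v : V, e • (z • v - v) = z • v - v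

theorem exists_good {r : ℕ} {E : Fin r → Subgroup X} (hc : ∀ i j, i ≠ j → ∀ g ∈ E i, ∀ h ∈ E j, g * h = h * g)
    (ho : ∀ i j, i ≠ j → ∀ g ∈ E i, ∀ h ∈ E j, ∀ v : V, h • (g • v - v) = g • v - v)
    (h : ∀ i, ∃ x y z : X, One V (E i) x y z) (s : Finset (Fin r)) : ∃ x y z : X, Good E V s x y z := by
  classical
  induction s using Finset.induction_on with
  | empty =>
    refine ⟨1, 1, 1, one_mem _, one_mem _, one_mem _, ?_, ?_, ?_, ?_, ?_, ?_, ?_⟩
    · simp
    · simp
    · intro i e _; simp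
    · intro i _ e _; simp
    · intro i _ e _; simp
    · intro i hi; exact absurd hi (Finset.notMem_empty i)
    · intro i _ e _ v; simp
  | @insert k s hk ih =>
    obtain ⟨x, y, z, g⟩ := ih
    obtain ⟨x', y', z', o⟩ := h k
    have hle : E k ≤ ⨆ i, E i := le_iSup E k
    have e1 : x * x' = x' * x := g.xc k hk x' o.hx
    have e2 : y * y' = y' * y := g.yc k hk y' o.hy
    have e3 : x * y' = y' * x := g.xc k hk y' o.hy
    have e4 : y * x' = x' * y := g.yc k hk x' o.hx
    have e5 : z * y' = y' * z := g.zc k y' o.hy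
    have e6 : z * x' = x' * z := g.zc k x' o.hx
    have e7 : z' * y = y * z' := (g.yc k hk z' o.hz).symm
    have e8 : z' * y' = y' * z' := o.zc y' o.hy
    refine ⟨x * x', y * y', z * z', mul_mem g.hx (hle o.hx), mul_mem g.hy (hle o.hy), mul_mem g.hz (hle o.hz),
      ?_, ?_, ?_, ?_, ?_, ?_, ?_⟩
    · rw [mul_assoc, ← mul_assoc y', ← e2, mul_assoc y, o.yy, ← mul_assoc, g.yy]
    · have h1 : x * y = z * y * x := by rw [← g.xy, inv_mul_cancel_right]
      have h2 : x' * y' = z' * y' * x' := by rw [← o.xy, inv_mul_cancel_right]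
      rw [mul_inv_eq_iff_eq_mul]
      calc x * x' * (y * y') = x * (x' * y) * y' := by group
        _ = x * y * (x' * y') := by rw [← e4]; group
        _ = z * y * x * (z' * y' * x') := by rw [h1, h2]
        _ = z * y * (x * z') * y' * x' := by group
        _ = z * y * z' * (x * y') * x' := by rw [g.xc k hk z' o.hz]; group
        _ = z * (y * z') * y' * (x * x') := by rw [e3]; group
        _ = z * z' * (y * y') * (x * x') := by rw [← e7]; group
    · intro i e he
      have h1 : z' * e = e * z' := by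
        by_cases hik : i = k
        · subst hik; exact o.zc e he
        · exact hc k i (fun h => hik h.symm) z' o.hz e he
      rw [mul_assoc, h1, ← mul_assoc, g.zc i e he, mul_assoc]
    · intro i hi e he
      rw [Finset.mem_insert, not_or] at hi
      rw [mul_assoc, hc k i (fun h => hi.1 h.symm) x' o.hx e he, ← mul_assoc, g.xc i hi.2 e he, mul_assoc]
    · intro i hi e he
      rw [Finset.mem_insert, not_or] at hi
      rw [mul_assoc, hc k i (fun h => hi.1 h.symm) y' o.hy e he, ← mul_assoc, g.yc i hi.2 e he, mul_assoc]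
    · intro i hi e he v
      rcases Finset.mem_insert.1 hi with rfl | hi
      · have e9 : (z * z') • v + v = (z • (z' • v) - z' • v) + (z' • v + v) := by
          rw [mul_smul]; abel
        rw [e9, smul_add, g.out i hk e he, o.neg e he]
      · have hik : k ≠ i := by rintro rfl; exact hk hi
        have e9 : (z * z') • v + v = (z • (z' • v) + z' • v) - (z' • v - v) := by
          rw [mul_smul]; abel
        rw [e9, smul_sub, g.neg i hi e he, ho k i hik z' o.hz e he]
    · intro i hi e he v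
      rw [Finset.mem_insert, not_or] at hi
      have e9 : (z * z') • v - v = (z • (z' • v) - z' • v) + (z' • v - v) := by
        rw [mul_smul]; abel
      rw [e9, smul_add, g.out i hi.2 e he, ho k i (fun h => hi.1 h.symm) z' o.hz e he]

theorem card_ge {p : ℕ} (hp : Nat.Prime p) (h5 : 5 ≤ p) (hpV : ∀ v : V, p • v = 0) (F : Type) [Field F] [Fintype F] (π : V →+ (Fin 2 → F))
    (hs : Function.Surjective π) : 3 < Fintype.card F := by
  have h0 : (p : F) = 0 := by
    obtain ⟨v, hv⟩ := hs (fun _ => 1)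
    have h1 : π (p • v) = 0 := by rw [hpV, map_zero]
    rw [map_nsmul, hv] at h1
    have h2 := congrFun h1 0
    simpa using h2
  have : Fact p.Prime := ⟨hp⟩
  have : CharP F p := by
    obtain ⟨q, hq⟩ := CharP.exists F
    have h1 : q ∣ p := (CharP.cast_eq_zero_iff F q p).1 h0
    rcases (Nat.dvd_prime hp).1 h1 with h2 | h2
    · exact absurd h2 (CharP.char_ne_one F q)
    · rw [← h2]; exact hq
  obtain ⟨n, -, hn⟩ := FiniteField.card F p
  have h1 : p ^ 1 ≤ p ^ (n : ℕ) := Nat.pow_le_pow_right hp.pos n.2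
  rw [pow_one] at h1
  omega

theorem commutator_eq_self {p : ℕ} (hp : Nat.Prime p) (h5 : 5 ≤ p) (hpV : ∀ v : V, p • v = 0) {E : Subgroup X}
    (h : NatA V E) : ⁅E, E⁆ = E := by
  obtain ⟨F, hF, hFt, φ, π, hs, hk, ha⟩ := h
  have h1 := TwoFusion.SLTwoFacts.commutator_eq_top (card_ge hp h5 hpV F π hs)
  have h2 : commutator E = ⊤ := by
    have h3 : (commutator (Matrix.SpecialLinearGroup (Fin 2) F)).map φ.symm.toMonoidHom = ⊤ := by
      rw [h1, ← MonoidHom.range_eq_map]
      exact MonoidHom.range_eq_top.2 φ.symm.surjective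
    rw [eq_top_iff, ← h3, commutator_def, Subgroup.map_commutator, commutator_def]
    exact Subgroup.commutator_mono le_top le_top
  rw [← Subgroup.map_subtype_commutator, h2, ← MonoidHom.range_eq_map, Subgroup.range_subtype]

/-- **T7a** -/
theorem t7a_ff {p : ℕ} [Fact p.Prime] {X : Type*} [Group X] [Finite X] {V : Type*} [AddCommGroup V] [Finite V] [DistribMulAction X V]
    (hp : 5 ≤ p) (hX : Cfsg.IsPMinimal p X) (hcore : ∀ N : Subgroup X, N.Normal → IsPGroup p N → N = ⊥)
    (h2 : ∀ v : V, p • v = 0) (hf : ∀ x : X, (∀ v : V, x • v = v) → x = 1) {A : Subgroup X} (hA : EA p A)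
    (hne : A ≠ ⊥) (hoff : Nat.card V ≤ mm V A) :
    ∃ E : Subgroup X, A ≤ E ∧ (∀ J : Subgroup X, J.Normal → A ≤ J → E ≤ J) ∧ ⁅E, E⁆ = E ∧
      ∃ x ∈ E, ∃ y ∈ E, ∃ z ∈ E, y * y = z ∧ x * y * x⁻¹ = z * y ∧ (∀ e ∈ E, z * e = e * z) ∧
        ∀ v : V, z • v = v → ∀ a ∈ A, a • v = v := by
  have hpp : Nat.Prime p := Fact.out
  have hp2 : p ≠ 2 := by omega
  obtain ⟨T⟩ : Nonempty (Sylow p X) := inferInstance
  obtain ⟨r, E, -, hc, -, -, ho, hn, hall⟩ := full hX hp2 hcore h2 hf hA hne hoff T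
  obtain ⟨hAE, hJ⟩ := hall A hA hne hoff
  obtain ⟨x, y, z, g⟩ := exists_good hc ho (fun i => exists_one (hn i)) Finset.univ
  have hsm : ∀ (S : Subgroup X) , (∀ i, E i ≤ S) → ∀ e ∈ ⨆ i, E i, e ∈ S := fun S hS e he =>
    (iSup_le hS : (⨆ i, E i) ≤ S) he
  refine ⟨⨆ i, E i, hAE, hJ, ?_, x, g.hx, y, g.hy, z, g.hz, g.yy, g.xy, ?_, ?_⟩
  · apply le_antisymm (Subgroup.commutator_le_self _)
    refine iSup_le fun i => ?_
    rw [← commutator_eq_self hpp hp h2 (hn i)]
    exact Subgroup.commutator_mono (le_iSup E i) (le_iSup E i)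
  · intro e he
    have := hsm (centralizer {z}) (fun i e he => by
      rw [mem_centralizer_iff]
      rintro _ rfl
      exact g.zc i e he) e he
    exact (mem_centralizer_iff.1 this) z rfl
  · intro v hv a ha
    have key : ∀ i, E i ≤ MulAction.stabilizer X v := by
      intro i e he
      rw [MulAction.mem_stabilizer_iff]
      have h1 := g.neg i (Finset.mem_univ i) e he v
      rw [hv, smul_add] at h1
      have h3 : (2 : ℕ) • (e • v - v) = 0 := by
        rw [two_nsmul]
        have : (e • v - v) + (e • v - v) = (e • v + e • v) - (v + v) := by abel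
        rw [this, h1, sub_self]
      have h4 : p • (e • v - v) = 0 := h2 _
      have hcop : Nat.Coprime 2 p := (Nat.coprime_primes Nat.prime_two hpp).2 (Ne.symm hp2)
      have h5 : addOrderOf (e • v - v) ∣ Nat.gcd 2 p :=
        Nat.dvd_gcd (addOrderOf_dvd_of_nsmul_eq_zero h3) (addOrderOf_dvd_of_nsmul_eq_zero h4)
      rw [hcop] at h5
      exact sub_eq_zero.1 (AddMonoid.addOrderOf_eq_one_iff.1 (Nat.dvd_one.1 h5))
    exact MulAction.mem_stabilizer_iff.1 (hsm _ key a (hAE ha))

end Cfsg.Agent.H456.J7.FF
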